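/-
Extensions of `K`-groups.
-/
import Cfsg.Agent.NSF.Bas

set_option autoImplicit false
set_option linter.unusedSectionVars false

namespace Cfsg.Agent.NSV

open Subgroup Cfsg.Agent.H49 Cfsg.Agent.NSF

universe u

theorem kg_hom {X X' : Type u} [Group X] [Group X'] (f : X →* X') (h1 : Cfsg.IsKGroup f.ker)
    (h2 : Cfsg.IsKGroup f.range) : Cfsg.IsKGroup X := by
  intro H N _ hs hna
  have hn : (((f.comp H.subtype).ker).map (QuotientGroup.mk' N)).Normal :=
    Normal.map inferInstance _ (QuotientGroup.mk'_surjective N)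
  rcases hs.eq_bot_or_eq_top_of_normal _ hn with e | e
  · have hle : (f.comp H.subtype).ker ≤ (QuotientGroup.mk' N).ker := (Subgroup.map_eq_bot_iff _).1 e
    have hK : Cfsg.IsKGroup (f.comp H.subtype).range := H59.IsKGroup.of_injective h2
      (inclusion (by rintro _ ⟨x, rfl⟩; exact ⟨x, rfl⟩)) (inclusion_injective _)
    refine H59.IsKGroup.known (H59.IsKGroup.of_surjective hK
      ((QuotientGroup.lift _ (QuotientGroup.mk' N) hle).comp
        (QuotientGroup.quotientKerEquivRange (f.comp H.subtype)).symm.toMonoidHom) ?_) hs hna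
    intro y
    obtain ⟨x, rfl⟩ := QuotientGroup.mk'_surjective N y
    exact ⟨QuotientGroup.quotientKerEquivRange _ (QuotientGroup.mk x), by simp⟩
  · have hK : Cfsg.IsKGroup (f.comp H.subtype).ker := H59.IsKGroup.of_injective h1
      ((H.subtype.comp (f.comp H.subtype).ker.subtype).codRestrict f.ker fun x => x.2)
      fun x y e => Subtype.ext (Subtype.ext (congrArg (fun z : f.ker => (z : X)) e))
    refine H59.IsKGroup.known (H59.IsKGroup.of_surjective hK
      ((QuotientGroup.mk' N).comp (f.comp H.subtype).ker.subtype) fun y => ?_) hs hna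
    obtain ⟨x, hx, rfl⟩ := e.ge (mem_top y)
    exact ⟨⟨x, hx⟩, rfl⟩

theorem kg_of_solvable {X : Type u} [Group X] (h : Group.IsSolvable X) : Cfsg.IsKGroup X :=
  fun H N _ _ hna => absurd ⟨⟨(IsSimpleGroup.comm_iff_isSolvable (G := H ⧸ N)).2 inferInstance⟩⟩ hna

variable {G : Type u} [Group G] [Finite G] {M N X Y : Subgroup G}

theorem kg_of_le (h : Cfsg.IsKGroup Y) (hX : X ≤ Y) : Cfsg.IsKGroup X :=
  H59.IsKGroup.of_injective h (inclusion hX) (inclusion_injective hX)

theorem kg_ext (hY : Y ≤ 𝒩(N)) (h1 : Cfsg.IsKGroup ↥(Y ⊓ N)) (h2 : Cfsg.IsKGroup (quo Y N)) :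
    Cfsg.IsKGroup Y := by
  refine kg_hom (cosetOn hY) ?_ (range_cosetOn hY ▸ h2)
  rw [ker_cosetOn, ← inf_subgroupOf_left]
  exact H59.IsKGroup.of_injective h1 (subgroupOfEquivOfLe inf_le_left).toMonoidHom
    (MulEquiv.injective _)

theorem kg_sup (hn : M ≤ 𝒩(N)) (h1 : Cfsg.IsKGroup M) (h2 : Cfsg.IsKGroup N) :
    Cfsg.IsKGroup ↥(M ⊔ N) :=
  kg_ext (sup_le hn le_normalizer) (kg_of_le h2 inf_le_right)
    (quo_sup_ker hn ▸ kgroup_quo h1 hn)

theorem kg_of_res (h : Cfsg.IsKGroup (res Y)) : Cfsg.IsKGroup Y :=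
  kg_ext (le_norm_res Y) (kg_of_le h inf_le_right) (kg_of_solvable (solvable_quo_res Y))

end Cfsg.Agent.NSV
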